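import Mathlib

/-! Strongly regular graphs: rank three groups, parameter conditions and an eigenvector lemma. -/

set_option autoImplicit false

namespace CF.Srg

open Finset
open scoped _root_.Classical

variable {Ω : Type*} {Γ : SimpleGraph Ω} {k l μ : ℕ}

/-- strong regularity without decidability instances -/
structure SR (Γ : SimpleGraph Ω) (k l μ : ℕ) : Prop where
  deg : ∀ x, {y | Γ.Adj x y}.ncard = k
  adj : ∀ x y, Γ.Adj x y → {z | Γ.Adj x z ∧ Γ.Adj y z}.ncard = l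
  nadj : ∀ x y, x ≠ y → ¬ Γ.Adj x y → {z | Γ.Adj x z ∧ Γ.Adj y z}.ncard = μ

theorem SR.of_iso {Ω' : Type*} {Γ' : SimpleGraph Ω'} (h : SR Γ k l μ) (e : Γ ≃g Γ') : SR Γ' k l μ := by
  have key : ∀ p : Ω' → Prop, {z | p z}.ncard = {z | p (e z)}.ncard := fun p =>
    (Set.ncard_congr' (Equiv.subtypeEquiv e.toEquiv fun _ => Iff.rfl)).symm
  refine ⟨fun x => ?_, fun x y hxy => ?_, fun x y hne hxy => ?_⟩
  · obtain ⟨x, rfl⟩ := e.surjective x
    rw [key]; simpa only [e.map_adj_iff] using h.deg x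
  · obtain ⟨x, rfl⟩ := e.surjective x
    obtain ⟨y, rfl⟩ := e.surjective y
    rw [key]; simpa only [e.map_adj_iff] using h.adj x y (e.map_adj_iff.1 hxy)
  · obtain ⟨x, rfl⟩ := e.surjective x
    obtain ⟨y, rfl⟩ := e.surjective y
    rw [key]; simpa only [e.map_adj_iff] using h.nadj x y (fun c => hne (c ▸ rfl)) (mt e.map_adj_iff.2 hxy)

variable [Fintype Ω]

theorem ncard_eq (p : Ω → Prop) [DecidablePred p] : {z | p z}.ncard = #{z | p z} := by
  rw [← Set.ncard_coe_finset]; congr 1; ext; simp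

theorem srg_iff [DecidableRel Γ.Adj] {n : ℕ} : Γ.IsSRGWith n k l μ ↔ Fintype.card Ω = n ∧ SR Γ k l μ := by
  have h1 : ∀ x, Γ.degree x = {y | Γ.Adj x y}.ncard := fun x => by
    rw [← SimpleGraph.card_neighborSet_eq_degree, ← Nat.card_eq_fintype_card, Nat.card_coe_set_eq]; rfl
  have h2 : ∀ x y, Fintype.card (Γ.commonNeighbors x y) = {z | Γ.Adj x z ∧ Γ.Adj y z}.ncard := fun x y => by
    rw [← Nat.card_eq_fintype_card, Nat.card_coe_set_eq]; rfl
  exact ⟨fun h => ⟨h.card, fun x => (h1 x).symm.trans (h.regular x), fun x y a => (h2 x y).symm.trans (h.of_adj x y a),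
    fun x y a b => (h2 x y).symm.trans (h.of_not_adj a b)⟩,
    fun h => ⟨h.1, fun x => (h1 x).trans (h.2.deg x), fun x y a => (h2 x y).trans (h.2.adj x y a),
      fun x y a b => (h2 x y).trans (h.2.nadj x y a b)⟩⟩

theorem SR.deg' (h : SR Γ k l μ) (x : Ω) : #{y | Γ.Adj x y} = k := (ncard_eq _).symm.trans (h.deg x)

theorem SR.adj' (h : SR Γ k l μ) {x y : Ω} (a : Γ.Adj x y) : #{z | Γ.Adj x z ∧ Γ.Adj y z} = l :=
  (ncard_eq _).symm.trans (h.adj x y a)

theorem SR.nadj' (h : SR Γ k l μ) {x y : Ω} (a : x ≠ y) (b : ¬ Γ.Adj x y) : #{z | Γ.Adj x z ∧ Γ.Adj y z} = μ :=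
  (ncard_eq _).symm.trans (h.nadj x y a b)

theorem SR.param (h : SR Γ k l μ) [Nonempty Ω] : k * (k - l - 1) = (Fintype.card Ω - k - 1) * μ :=
  (srg_iff.2 ⟨rfl, h⟩).param_eq Γ Fintype.card_pos

section
variable {R : Type*} [CommRing R]

theorem SR.cn (h : SR Γ k l μ) (x y : Ω) : (#{z | Γ.Adj x z ∧ Γ.Adj y z} : R) =
    μ + (if x = y then (k - μ : R) else 0) + if Γ.Adj x y then (l - μ : R) else 0 := by
  by_cases e : x = y
  · subst e; simp [h.deg']
  · by_cases a : Γ.Adj x y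
    · simp [e, a, h.adj' a]
    · simp [e, a, h.nadj' e a]

/-- the adjacency operator -/
noncomputable def av (Γ : SimpleGraph Ω) (v : Ω → R) (x : Ω) : R := ∑ y with Γ.Adj x y, v y

theorem SR.sum_sq (h : SR Γ k l μ) (v : Ω → R) : ∑ x, av Γ v x ^ 2 =
    (k - μ) * ∑ x, v x ^ 2 + (l - μ) * ∑ x, v x * av Γ v x + μ * (∑ x, v x) ^ 2 := by
  have e1 : ∀ x, av Γ v x ^ 2 = ∑ y, ∑ z, if Γ.Adj y x ∧ Γ.Adj z x then v y * v z else 0 := fun x => by
    rw [sq, av, sum_filter, sum_mul_sum]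
    refine sum_congr rfl fun y _ => sum_congr rfl fun z _ => ?_
    by_cases a : Γ.Adj x y <;> by_cases b : Γ.Adj x z <;> simp [a, b, Γ.adj_comm y, Γ.adj_comm z]
  simp only [e1]
  rw [sum_comm, sq (∑ x, v x), sum_mul_sum, mul_sum, mul_sum, mul_sum, ← sum_add_distrib, ← sum_add_distrib]
  refine sum_congr rfl fun y _ => ?_
  rw [sum_comm]
  have e2 : ∀ z, (∑ x, if Γ.Adj y x ∧ Γ.Adj z x then v y * v z else 0) =
      μ * (v y * v z) + (if y = z then (k - μ : R) * (v y * v z) else 0) +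
        if Γ.Adj y z then (l - μ : R) * (v y * v z) else 0 := fun z => by
    rw [← sum_filter, sum_const, nsmul_eq_mul, h.cn]
    split_ifs <;> ring
  simp only [e2, sum_add_distrib, sum_ite_eq, mem_univ, if_true, av, sum_filter, mul_sum, mul_ite, mul_zero]
  ring

end

/-- vectors annihilated by the rows outside `S` -/
theorem SR.eig (h : SR Γ k l μ) {v : Ω → ℤ} (h0 : ∑ x, v x = 0) {S : Finset Ω}
    (hq : ∑ x ∈ S, av Γ v x ^ 2 = (k - μ) * ∑ x, v x ^ 2 + (l - μ) * ∑ x, v x * av Γ v x) {y : Ω} (hy : y ∉ S) :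
    av Γ v y = 0 := by
  have h1 := h.sum_sq v
  rw [h0, ← hq, ← sum_add_sum_compl S] at h1
  have h2 : ∑ x ∈ Sᶜ, av Γ v x ^ 2 = 0 := by linarith
  exact pow_eq_zero_iff two_ne_zero |>.1 ((sum_eq_zero_iff_of_nonneg fun _ _ => sq_nonneg _).1 h2 y (mem_compl.2 hy))

/-- a nilpotent matrix has trace zero -/
theorem SR.trace (h : SR Γ k l μ) (p : ℕ) (hp : p.Prime) (α β γ : ZMod p) {n : ℕ} (hn : Fintype.card Ω = n)
    (h1 : α ^ 2 * (k - μ) + β ^ 2 = 0) (h2 : α ^ 2 * (l - μ) + 2 * α * β = 0)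
    (h3 : α ^ 2 * μ + 2 * α * γ * k + 2 * β * γ + n * γ ^ 2 = 0) : (n : ZMod p) * (β + γ) = 0 := by
  haveI := Fact.mk hp
  let B : Matrix Ω Ω (ZMod p) := Matrix.of fun x y => (if Γ.Adj x y then α else 0) + (if x = y then β else 0) + γ
  have hB : B ^ 2 = 0 := by
    ext x y
    have a1 : (∑ z, if Γ.Adj x z ∧ Γ.Adj y z then α ^ 2 else 0) = α ^ 2 * (μ + (if x = y then (k - μ : ZMod p) else 0) +
        if Γ.Adj x y then (l - μ : ZMod p) else 0) := by
      rw [← sum_filter, sum_const, nsmul_eq_mul, h.cn, mul_comm]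
    have a2 : ∀ x, (∑ z, if Γ.Adj x z then α * γ else 0) = α * γ * k := fun x => by
      rw [← sum_filter, sum_const, nsmul_eq_mul, h.deg', mul_comm]
    have e : ∀ z, B x z * B z y = (if Γ.Adj x z ∧ Γ.Adj y z then α ^ 2 else 0) + (if Γ.Adj x z then α * γ else 0) +
        (if Γ.Adj y z then α * γ else 0) + (if x = z then β * B z y else 0) +
        (if y = z then β * ((if Γ.Adj x z then α else 0) + γ) else 0) + γ ^ 2 := fun z => by
      simp only [B, Matrix.of_apply, Γ.adj_comm z y, @eq_comm _ z y]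
      generalize Γ.Adj x z = P, Γ.Adj y z = Q, (x = z) = R, (y = z) = S
      by_cases c1 : P <;> by_cases c2 : Q <;> by_cases c3 : R <;> by_cases c4 : S <;>
        simp only [c1, c2, c3, c4, if_true, if_false, and_self, and_false, false_and] <;> ring1
    rw [sq, Matrix.mul_apply, Matrix.zero_apply]
    simp only [e, sum_add_distrib, a1, a2, sum_ite_eq, mem_univ, if_true, sum_const, card_univ, hn, nsmul_eq_mul]
    simp only [B, Matrix.of_apply]
    by_cases c : x = y
    · subst c; simp only [Γ.irrefl, if_true, if_false]; linear_combination h1 + h3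
    · by_cases d : Γ.Adj x y <;> simp only [c, d, if_true, if_false]
      · linear_combination h2 + h3
      · linear_combination h3
  have := (Matrix.isNilpotent_trace_of_isNilpotent ⟨2, hB⟩).eq_zero
  simpa [Matrix.trace, B, hn, mul_add] using this

theorem SR.lt (h : SR Γ k l μ) (a : Ω) (h0 : 0 < k) : l < k := by
  obtain ⟨x, hx⟩ : (univ.filter fun y => Γ.Adj a y).Nonempty := card_pos.1 (by rw [h.deg']; omega)
  rw [← h.adj' (mem_filter.1 hx).2, ← h.deg' a]
  exact card_lt_card ⟨fun z hz => mem_filter.2 ⟨mem_univ _, (mem_filter.1 hz).2.1⟩,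
    fun c => Γ.irrefl (mem_filter.1 (c hx)).2.2⟩

/-- two non-adjacent neighbours of a vertex -/
theorem SR.loc (h : SR Γ k l μ) (a : Ω) (h1 : l + 1 < k) : 2 * l + 3 ≤ μ + k := by
  obtain ⟨x, hx⟩ : (univ.filter fun y => Γ.Adj a y).Nonempty := card_pos.1 (by rw [h.deg']; omega)
  have hx' := (mem_filter.1 hx).2
  obtain ⟨y, hy, hy'⟩ := exists_mem_notMem_of_card_lt_card
    (s := insert x (univ.filter fun z => Γ.Adj a z ∧ Γ.Adj x z)) (t := univ.filter fun y => Γ.Adj a y)
    ((card_insert_le _ _).trans_lt (by rw [h.adj' hx', h.deg']; omega))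
  have hy1 := (mem_filter.1 hy).2
  simp only [mem_insert, mem_filter, mem_univ, true_and, not_or, not_and] at hy'
  have hxy := hy'.2 hy1
  have c1 := card_union_add_card_inter (univ.filter fun z => Γ.Adj a z ∧ Γ.Adj x z)
    (univ.filter fun z => Γ.Adj a z ∧ Γ.Adj y z)
  rw [h.adj' hx', h.adj' hy1] at c1
  have c2 : #((univ.filter fun z => Γ.Adj a z ∧ Γ.Adj x z) ∪ univ.filter fun z => Γ.Adj a z ∧ Γ.Adj y z) ≤
      #((univ.filter fun y => Γ.Adj a y) \ {x, y}) := card_le_card fun z hz => by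
    simp only [mem_union, mem_filter, mem_univ, true_and, mem_sdiff, mem_insert, mem_singleton, not_or] at hz ⊢
    rcases hz with hz | hz
    · exact ⟨hz.1, hz.2.ne', fun e => hxy (e ▸ hz.2)⟩
    · exact ⟨hz.1, fun e => hxy (e ▸ hz.2.symm), hz.2.ne'⟩
  rw [card_sdiff_of_subset (by intro z hz; simp only [mem_insert, mem_singleton] at hz; rcases hz with rfl | rfl <;>
    assumption), h.deg', card_pair (Ne.symm hy'.1)] at c2
  have c3 : #(insert a ((univ.filter fun z => Γ.Adj a z ∧ Γ.Adj x z) ∩ univ.filter fun z => Γ.Adj a z ∧ Γ.Adj y z)) ≤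
      #{z | Γ.Adj x z ∧ Γ.Adj y z} := card_le_card fun z hz => by
    simp only [mem_inter, mem_filter, mem_univ, true_and, mem_insert] at hz ⊢
    rcases hz with rfl | hz
    · exact ⟨hx'.symm, hy1.symm⟩
    · exact ⟨hz.1.2, hz.2.2⟩
  rw [card_insert_of_notMem (by simp), h.nadj' (Ne.symm hy'.1) hxy] at c3
  omega

/-- the orbital graph of a rank three group -/
theorem rank3 (G : Subgroup (Equiv.Perm Ω)) [MulAction.IsPretransitive G Ω] (a b c : Ω) {m : ℕ}
    (hb : (MulAction.orbit (MulAction.stabilizer G a) b).ncard = k)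
    (hc : (MulAction.orbit (MulAction.stabilizer G a) c).ncard = m) (hn : Fintype.card Ω = 1 + k + m)
    (h1 : k ≠ 1) (h2 : m ≠ 1) (h3 : k ≠ m) :
    ∃ (Γ : SimpleGraph Ω) (l μ : ℕ), SR Γ k l μ ∧ (∀ (g : G) x y, Γ.Adj (g • x) (g • y) ↔ Γ.Adj x y) ∧
      (∀ x, Γ.Adj a x ↔ x ∈ MulAction.orbit (MulAction.stabilizer G a) b) ∧
      ∀ x, x ≠ a → ¬ Γ.Adj a x → x ∈ MulAction.orbit (MulAction.stabilizer G a) c := by
  set H := MulAction.stabilizer G a
  have oa : MulAction.orbit H a = {a} := by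
    ext x; exact ⟨fun ⟨g, e⟩ => e.symm.trans g.2, fun e => by rw [Set.mem_singleton_iff.1 e]; exact MulAction.mem_orbit_self a⟩
  have na : ∀ {x}, (MulAction.orbit H x).ncard ≠ 1 → a ∉ MulAction.orbit H x := fun h e =>
    h (by rw [← MulAction.orbit_eq_iff.2 e, oa, Set.ncard_singleton])
  have dj : Disjoint (MulAction.orbit H b) (MulAction.orbit H c) := Set.disjoint_left.2 fun x e e' =>
    h3 (by rw [← hb, ← hc, ← MulAction.orbit_eq_iff.2 e, ← MulAction.orbit_eq_iff.2 e'])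
  have cov : insert a (MulAction.orbit H b ∪ MulAction.orbit H c) = Set.univ := by
    refine Set.eq_of_subset_of_ncard_le (Set.subset_univ _) ?_
    rw [Set.ncard_insert_of_notMem (by rintro (e | e); exacts [na (hb ▸ h1) e, na (hc ▸ h2) e]),
      Set.ncard_union_eq dj, hb, hc, Set.ncard_univ, Nat.card_eq_fintype_card, hn]
    omega
  have cov' : ∀ x, x ≠ a → x ∉ MulAction.orbit H b → x ∈ MulAction.orbit H c := fun x e e' => by
    rcases (cov.symm ▸ Set.mem_univ x : x ∈ insert a _) with h | h | h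
    exacts [absurd h e, absurd h e', h]
  have hba : b ≠ a := fun e => na (hb ▸ h1) (e ▸ MulAction.mem_orbit_self b)
  have sz : ∀ x y : Ω, (MulAction.orbit (MulAction.stabilizer G x) y).ncard *
      Nat.card ↥(MulAction.stabilizer G x ⊓ MulAction.stabilizer G y) = Nat.card (MulAction.stabilizer G x) := by
    intro x y
    rw [← MulAction.index_stabilizer, ← (MulAction.stabilizer (MulAction.stabilizer G x) y).index_mul_card]
    congr 1
    exact Nat.card_congr ⟨fun g => ⟨⟨g.1, g.2.1⟩, g.2.2⟩, fun g => ⟨g.1.1, g.1.2, g.2⟩, fun _ => rfl, fun _ => rfl⟩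
  have sy : ∀ g : G, g • b = a → g • a ∈ MulAction.orbit H b := fun g hg => by
    by_contra e
    have e1 := cov' _ (fun e => hba (smul_left_cancel g (hg.trans e.symm))) e
    have hg' : g⁻¹ • a = b := inv_smul_eq_iff.2 hg.symm
    have s1 := sz a (g • a)
    have s2 := sz a b
    have s3 : Nat.card ↥(MulAction.stabilizer G a ⊓ MulAction.stabilizer G (g • a)) =
        Nat.card ↥(MulAction.stabilizer G a ⊓ MulAction.stabilizer G b) := by
      refine Nat.card_congr ⟨fun x => ⟨g⁻¹ * x * g, ?_, ?_⟩, fun x => ⟨g * x * g⁻¹, ?_, ?_⟩, fun x => by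
        simp [mul_assoc], fun x => by simp [mul_assoc]⟩
      · show _ • _ = _; rw [mul_smul, mul_smul, x.2.2, inv_smul_smul]
      · show _ • _ = _; rw [mul_smul, mul_smul, hg, x.2.1, hg']
      · show _ • _ = _; rw [mul_smul, mul_smul, hg', x.2.2, hg]
      · show _ • _ = _; rw [mul_smul, mul_smul, inv_smul_smul, x.2.1]
    rw [MulAction.orbit_eq_iff.2 e1, hc, s3] at s1
    rw [hb, ← s1] at s2
    exact h3 (Nat.eq_of_mul_eq_mul_right Nat.card_pos s2)
  let Γ : SimpleGraph Ω :=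
    { Adj := fun x y => ∃ g : G, g • a = x ∧ g • b = y
      symm := ⟨by
        rintro _ _ ⟨g, rfl, rfl⟩
        obtain ⟨t, ht⟩ := MulAction.exists_smul_eq G b a
        obtain ⟨s, hs⟩ := sy t ht
        have hs' : (s : G) • b = t • a := hs
        refine ⟨g * t⁻¹ * s, ?_, ?_⟩
        · rw [mul_smul, mul_smul, s.2, ← ht, inv_smul_smul]
        · rw [mul_smul, mul_smul, hs', inv_smul_smul]⟩
      loopless := ⟨fun x ⟨g, e, e'⟩ => hba (smul_left_cancel g (e'.trans e.symm))⟩ }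
  have inv : ∀ (g : G) x y, Γ.Adj (g • x) (g • y) ↔ Γ.Adj x y := fun g x y =>
    ⟨fun ⟨t, e, e'⟩ => ⟨g⁻¹ * t, by rw [mul_smul, e, inv_smul_smul], by rw [mul_smul, e', inv_smul_smul]⟩,
      fun ⟨t, e, e'⟩ => ⟨g * t, by rw [mul_smul, e], by rw [mul_smul, e']⟩⟩
  have nb : ∀ x, Γ.Adj a x ↔ x ∈ MulAction.orbit H b := fun x =>
    ⟨fun ⟨g, e, e'⟩ => ⟨⟨g, e⟩, e'⟩, fun ⟨g, e⟩ => ⟨g, g.2, e⟩⟩
  have key : ∀ (g : G) (p : Ω → Prop), {z | p z}.ncard = {z | p (g • z)}.ncard := fun g p =>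
    (Set.ncard_congr' (Equiv.subtypeEquiv (MulAction.toPerm g) fun _ => Iff.rfl)).symm
  refine ⟨Γ, {z | Γ.Adj a z ∧ Γ.Adj b z}.ncard, {z | Γ.Adj a z ∧ Γ.Adj c z}.ncard, ⟨fun x => ?_, ?_, fun x y e e' => ?_⟩,
    inv, nb, fun x e e' => cov' x e (mt (nb x).2 e')⟩
  · obtain ⟨g, rfl⟩ := MulAction.exists_smul_eq G a x
    rw [key g, ← hb]; simp only [inv, nb]; rfl
  · rintro _ _ ⟨g, rfl, rfl⟩
    rw [key g]; simp only [inv]
  · obtain ⟨g, rfl⟩ := MulAction.exists_smul_eq G a x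
    obtain ⟨y, rfl⟩ := (MulAction.toPerm g).surjective y
    obtain ⟨s, rfl⟩ := cov' y (fun c => e (c ▸ rfl)) (mt (nb y).2 (mt (inv g _ _).2 e'))
    rw [key (g * s)]
    have e1 : g • a = (g * s) • a := by rw [mul_smul, s.2]
    have e2 : MulAction.toPerm g (s • c) = (g * s) • c := by rw [mul_smul]; rfl
    simp only [e1, e2, inv]

theorem card_eq_of_trans (G : Subgroup (Equiv.Perm Ω)) [MulAction.IsPretransitive G Ω] (a : Ω) :
    Nat.card G = Fintype.card Ω * Nat.card (MulAction.stabilizer G a) := by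
  rw [← (MulAction.stabilizer G a).index_mul_card, MulAction.index_stabilizer, MulAction.orbit_eq_univ,
    Set.ncard_univ, Nat.card_eq_fintype_card]

/-- a simple subgroup of index at most two is the only subgroup of its order -/
theorem eq_of_simple {A : Type*} [Group A] [Finite A] {G₁ G₂ : Subgroup A} {s : ℕ} (h1 : Nat.card G₁ = s)
    (h2 : Nat.card G₂ = s) (hA : Nat.card A ≤ 2 * s) (hs : 2 < s) [IsSimpleGroup G₂] : G₁ = G₂ := by
  have i1 := G₁.index_mul_card
  have i0 : G₁.index ≠ 0 := Subgroup.index_ne_zero_of_finite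
  rw [h1] at i1
  have i2 : G₁.index ≤ 2 := Nat.le_of_mul_le_mul_right (i1 ▸ hA) (by omega)
  have hN : G₁.Normal := by
    rcases (by omega : G₁.index = 1 ∨ G₁.index = 2) with e | e
    · rw [Subgroup.index_eq_one.1 e]; infer_instance
    · exact Subgroup.normal_of_index_eq_two e
  rcases (inferInstance : (G₁.subgroupOf G₂).Normal).eq_bot_or_eq_top with e | e
  · have := Subgroup.relIndex_le_of_le_right (H := G₁) (le_top (a := G₂)) (by rwa [Subgroup.relIndex_top_right])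
    rw [Subgroup.relIndex_top_right, Subgroup.relIndex, e, Subgroup.index_bot, h2] at this
    omega
  · exact (Subgroup.eq_of_le_of_card_ge (Subgroup.subgroupOf_eq_top.1 e) (by omega)).symm

theorem nonempty_equiv_of_simple {A G X : Type*} [Group A] [Finite A] [Group G] [Group X] [IsSimpleGroup X]
    (φ : G →* A) (ψ : X →* A) (hφ : Function.Injective φ) (hψ : Function.Injective ψ) {s : ℕ}
    (h1 : Nat.card G = s) (h2 : Nat.card X = s) (hA : Nat.card A ≤ 2 * s) (hs : 2 < s) : Nonempty (G ≃* X) := by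
  have e1 := MonoidHom.ofInjective hφ
  have e2 := MonoidHom.ofInjective hψ
  haveI := e2.symm.isSimpleGroup
  have := eq_of_simple ((Nat.card_congr e1.toEquiv).symm.trans h1) ((Nat.card_congr e2.toEquiv).symm.trans h2) hA hs
  exact ⟨e1.trans ((MulEquiv.subgroupCongr this).trans e2.symm)⟩

end CF.Srg
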